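import Cfsg.Agent.SmallExp.Invariant
import Mathlib.GroupTheory.GroupAction.Quotient

/-!
# Groups all of whose `p'`-subgroups are abelian: the action on the involutions of a Sylow subgroup
-/

set_option autoImplicit false
set_option linter.style.haveILetI false

namespace CfsgLib.SmallExp

open Cfsg CfsgLib

theorem two_pow_sub_one_eq_prime_pow {p n b : ℕ} (hp : p.Prime) (hn : 2 ≤ n) (h : 2 ^ n - 1 = p ^ b) :
    b = 1 := by
  have h4 : 4 ∣ 2 ^ n := pow_dvd_pow 2 hn
  have h1 : 1 ≤ 2 ^ n := Nat.one_le_two_pow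
  have hb : Odd b := by
    rcases Nat.even_or_odd b with ⟨c, rfl⟩ | hb
    · exfalso
      rw [← two_mul, mul_comm, pow_mul] at h
      have hsq : (p ^ c) ^ 2 % 4 = 0 ∨ (p ^ c) ^ 2 % 4 = 1 := by
        rw [Nat.pow_mod]
        have := Nat.mod_lt (p ^ c) (show 4 > 0 by norm_num)
        interval_cases (p ^ c % 4) <;> simp
      omega
    · exact hb
  have h2 : (∑ i ∈ Finset.range b, (-(p : ℤ)) ^ i) * ((p : ℤ) + 1) = (p : ℤ) ^ b + 1 := by
    have := geom_sum_mul (-(p : ℤ)) b
    rw [hb.neg_pow] at this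
    linear_combination -this
  have hp2 : p % 2 = 1 := by
    refine Nat.two_dvd_ne_zero.1 fun hd => ?_
    have hb0 : b ≠ 0 := fun e => by simp [e] at hb
    have : 2 ∣ p ^ b := hd.trans (dvd_pow_self p hb0)
    omega
  have hodd : Odd (∑ i ∈ Finset.range b, (-(p : ℤ)) ^ i) := by
    have hpo : Odd (-(p : ℤ)) := (Nat.odd_iff.2 hp2).natCast.neg
    rw [Int.odd_iff, Finset.sum_int_mod, Finset.sum_congr rfl
      fun i _ => Int.odd_iff.1 (hpo.pow (n := i)), Finset.sum_const, Finset.card_range, nsmul_one]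
    exact_mod_cast Nat.odd_iff.1 hb
  have hsum : (∑ i ∈ Finset.range b, (-(p : ℤ)) ^ i) * ((p : ℤ) + 1) = (2 : ℤ) ^ n := by
    rw [h2]
    have : p ^ b + 1 = 2 ^ n := by omega
    exact_mod_cast this
  have hS : (∑ i ∈ Finset.range b, (-(p : ℤ)) ^ i).natAbs = 1 := by
    have hd : (∑ i ∈ Finset.range b, (-(p : ℤ)) ^ i).natAbs ∣ 2 ^ n := by
      have := Int.natAbs_dvd_natAbs.2 (Dvd.intro _ hsum)
      simpa [Int.natAbs_pow] using this
    obtain ⟨i, -, hi⟩ := (Nat.dvd_prime_pow Nat.prime_two).1 hd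
    rcases i with _ | i
    · simpa using hi
    · have := Int.natAbs_odd.2 hodd
      rw [hi, pow_succ] at this
      exact absurd this (Nat.not_odd_iff_even.2 ⟨2 ^ i, by ring⟩)
  have he : p ^ b + 1 = p + 1 := by
    have h3 := congrArg Int.natAbs h2
    rw [Int.natAbs_mul, hS, one_mul] at h3
    norm_cast at h3
    omega
  exact Nat.pow_right_injective hp.two_le (show p ^ b = p ^ 1 by rw [pow_one]; omega)

variable {G : Type*} [Group G] [Finite G] {p : ℕ} {S : Sylow 2 G} {M : Subgroup G}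

/-- An element normalising `S` and centralising one involution of `S` centralises `S`. -/
theorem Emb.stab_le (h : Emb G p S M) {n t : G}
    (hn : n ∈ Subgroup.normalizer ((S : Subgroup G) : Set G)) (ht : orderOf t = 2)
    (htS : t ∈ (S : Subgroup G)) (hnt : n * t = t * n) : ∀ s ∈ (S : Subgroup G), n * s = s * n := by
  classical
  haveI : Fact (Nat.Prime 2) := ⟨Nat.prime_two⟩
  haveI : Fact p.Prime := ⟨h.cex.prime⟩
  set hS := h.comm
  set E := omegaTwo (S : Subgroup G) hS with hE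
  set N := Subgroup.normalizer ((S : Subgroup G) : Set G) with hN
  let X : Type _ := {e : G // e ∈ E ∧ e ≠ 1}
  have hconj : ∀ (g : N) (e : X), (g : G) * e.1 * (g : G)⁻¹ ∈ E ∧ (g : G) * e.1 * (g : G)⁻¹ ≠ 1 :=
    fun g e => ⟨⟨conj_mem_of_mem_normalizer g.2 e.2.1.1,
      by rw [conj_pow, e.2.1.2, mul_one, mul_inv_cancel]⟩, fun h1 => e.2.2 (conj_eq_one_iff.mp h1)⟩
  letI act : MulAction N X :=
    { smul := fun g e => ⟨(g : G) * e.1 * (g : G)⁻¹, hconj g e⟩
      one_smul := fun e => Subtype.ext (show ((1 : N) : G) * e.1 * ((1 : N) : G)⁻¹ = e.1 by simp)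
      mul_smul := fun g g' e => Subtype.ext (show ((g * g' : N) : G) * e.1 * ((g * g' : N) : G)⁻¹ =
        (g : G) * ((g' : G) * e.1 * (g' : G)⁻¹) * (g : G)⁻¹ by push_cast; group) }
  set f := MulAction.toPermHom N X with hf
  have hker : ∀ g : N, (∀ e ∈ E, (g : G) * e = e * g) → f g = 1 := by
    intro g hg
    refine Equiv.ext fun e => Subtype.ext ?_
    show (g : G) * e.1 * (g : G)⁻¹ = e.1
    rw [hg e.1 e.2.1, mul_inv_cancel_right]
  have hR : IsPGroup p f.range := by
    rintro ⟨_, g, rfl⟩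
    obtain ⟨a, b, hab, ⟨k, hk⟩, hb⟩ := exists_primary_split g p
    refine ⟨k, Subtype.ext ?_⟩
    show f g ^ p ^ k = 1
    have hgb : f (g ^ b) = 1 := by
      refine hker _ fun e he => ?_
      rw [SubgroupClass.coe_pow]
      refine h.cex.commute_of_normalizes (h.cex.isPGroup_two S.2) ?_ (pow_mem g.2 b) he.1
      rwa [← SubgroupClass.coe_pow, Subgroup.orderOf_coe]
    rw [hab, map_mul, hgb, mul_one, ← map_pow, hk, map_one]
  have hx₀ : t ∈ E ∧ t ≠ 1 := ⟨⟨htS, sq_eq ht⟩, StronglyEmbedded.ne_one_of_orderOf_two ht⟩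
  set x₀ : X := ⟨t, hx₀⟩
  have htr : MulAction.orbit f.range x₀ = Set.univ := by
    refine Set.eq_univ_of_forall fun e => ?_
    have heo : orderOf e.1 = 2 := orderOf_eq_prime e.2.1.2 e.2.2
    obtain ⟨g, hg⟩ := isConj_iff.mp (StronglyEmbedded.isConj_involutions h.se ht heo)
    haveI : IsMulCommutative ↥(S : Subgroup G) :=
      ⟨⟨fun a b => Subtype.ext (hS _ a.2 _ b.2)⟩⟩
    obtain ⟨m, hm, hm'⟩ := S.conj_eq_normalizer_conj_of_mem t g⁻¹ htS
      (by rw [inv_inv, hg]; exact e.2.1.1)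
    rw [inv_inv, hg] at hm'
    refine ⟨⟨f ⟨m⁻¹, inv_mem hm⟩, _, rfl⟩, Subtype.ext ?_⟩
    show m⁻¹ * t * (m⁻¹)⁻¹ = e.1
    rw [inv_inv]
    exact hm'.symm
  have hX : Nat.card X + 1 = Nat.card E := by
    have e1 : X ≃ {e : E // e ≠ 1} :=
      { toFun := fun e => ⟨⟨e.1, e.2.1⟩, fun h1 => e.2.2 (congrArg Subtype.val h1)⟩
        invFun := fun e => ⟨e.1.1, e.1.2, fun h1 => e.2 (Subtype.ext h1)⟩
        left_inv := fun _ => rfl
        right_inv := fun _ => rfl }
    rw [Nat.card_congr e1, ← Finite.card_option]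
    exact Nat.card_congr (Equiv.optionSubtypeNe (1 : E))
  obtain ⟨r, hr⟩ := IsPGroup.iff_card.mp (S.2.to_le (fun x hx => hx.1) : IsPGroup 2 E)
  obtain ⟨k, hk⟩ := hR.card_orbit (x₀ : X)
  rw [htr, Nat.card_univ] at hk
  have h8 := h.cex.eight_le S hS
  change 8 ≤ Nat.card E at h8
  have hr3 : 2 ≤ r := by
    by_contra! hlt
    have := Nat.pow_le_pow_right two_pos (show r ≤ 1 by omega)
    omega
  have hk2 : 2 ^ r - 1 = p ^ k := by rw [← hr, ← hX, hk, Nat.add_sub_cancel]
  have hk1 : k = 1 := two_pow_sub_one_eq_prime_pow h.cex.prime hr3 hk2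
  rw [hk1, pow_one] at hk
  obtain ⟨j, hj⟩ := IsPGroup.iff_card.mp hR
  have hj1 : j ≤ 1 := by
    by_contra! hj2
    have hd : Nat.card f.range ∣ Nat.factorial p := by
      refine (Subgroup.card_subgroup_dvd_card f.range).trans (dvd_of_eq ?_)
      rw [Nat.card_perm, hk]
    have hd2 : p ^ 2 ∣ Nat.factorial p := (pow_dvd_pow p hj2).trans (hj ▸ hd)
    rw [← Nat.mul_factorial_pred h.cex.prime.ne_zero, sq] at hd2
    have := (h.cex.prime.dvd_factorial).mp (Nat.dvd_of_mul_dvd_mul_left h.cex.prime.pos hd2)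
    have := h.cex.five
    omega
  letI : Fintype f.range := Fintype.ofFinite _
  letI : Fintype (MulAction.orbit f.range x₀) := Fintype.ofFinite _
  letI : Fintype (MulAction.stabilizer f.range x₀) := Fintype.ofFinite _
  have horb := MulAction.card_orbit_mul_card_stabilizer_eq_card_group f.range x₀
  simp only [← Nat.card_eq_fintype_card, htr, Nat.card_univ, hk, hj] at horb
  have hstab : Nat.card (MulAction.stabilizer f.range x₀) = 1 := by
    have hle : p ^ j ≤ p := le_of_le_of_eq (Nat.pow_le_pow_right h.cex.prime.pos hj1) (pow_one p)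
    have hpos := Nat.card_pos (α := MulAction.stabilizer f.range x₀)
    have hp0 := h.cex.prime.pos
    nlinarith
  have hfn : f ⟨n, hn⟩ = 1 := by
    have hmem : (⟨f ⟨n, hn⟩, _, rfl⟩ : f.range) ∈ MulAction.stabilizer f.range x₀ := by
      refine Subtype.ext ?_
      show n * t * n⁻¹ = t
      rw [hnt, mul_inv_cancel_right]
    rw [Subgroup.card_eq_one.mp hstab, Subgroup.mem_bot] at hmem
    exact congrArg Subtype.val hmem
  have hE' : ∀ e ∈ E, n * e = e * n := by
    intro e he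
    by_cases he1 : e = 1
    · rw [he1, mul_one, one_mul]
    · have := congrArg Subtype.val (Equiv.ext_iff.mp hfn (⟨e, he, he1⟩ : X))
      exact mul_inv_eq_iff_eq_mul.mp this
  intro s hs
  obtain ⟨a, b, hab, ⟨i, hi⟩, hb⟩ := exists_primary_split n p
  have hA : n ^ a * s = s * n ^ a :=
    commute_of_omega h.cex.odd hS S.2 hi
      (fun u hu => conj_mem_of_mem_normalizer (pow_mem hn a) hu)
      (fun e he he2 => ((show Commute n e from hE' e ⟨he, he2⟩).pow_left a).eq) s hs
  have hB : n ^ b * s = s * n ^ b :=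
    h.cex.commute_of_normalizes (h.cex.isPGroup_two S.2) hb (pow_mem hn b) hs
  rw [hab]
  exact ((show Commute (n ^ a) s from hA).mul_left hB).eq

end CfsgLib.SmallExp
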