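import Cfsg.Agent.SmallExp.Sylow

/-!
# Groups all of whose `p'`-subgroups are abelian: the count of involutions
-/

set_option autoImplicit false
set_option linter.style.haveILetI false

namespace CfsgLib.SmallExp

open Cfsg CfsgLib
open scoped Pointwise

variable {G : Type*} [Group G] [Finite G] {p : ℕ} {S : Sylow 2 G} {M : Subgroup G}

/-- The involution `t` inverts a `t`-invariant `p`-subgroup outside `M`. -/
theorem Emb.inverts (h : Emb G p S M) {t : G} (ht : orderOf t = 2) (htM : t ∈ M) {T : Subgroup G}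
    (hT : IsPGroup p T) (htT : t ∈ Subgroup.normalizer (T : Set G)) (hTM : ¬ T ≤ M) :
    ∀ x ∈ T, t * x * t⁻¹ = x⁻¹ ∧ ∀ y ∈ T, x * y = y * x := by
  let φ : T →* T :=
    { toFun := fun x => ⟨t * x.1 * t⁻¹, conj_mem_of_mem_normalizer htT x.2⟩
      map_one' := Subtype.ext (show t * (1 : G) * t⁻¹ = 1 by group)
      map_mul' := fun x y => Subtype.ext (show t * (x.1 * y.1) * t⁻¹ =
        (t * x.1 * t⁻¹) * (t * y.1 * t⁻¹) by group) }
  have hfix : MonoidHom.FixedPointFree φ := by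
    intro x hx
    have hc : t * x.1 * t⁻¹ = x.1 := congrArg Subtype.val hx
    have hxM : x.1 ∈ M :=
      StronglyEmbedded.mem_of_commute h.se ht htM (mul_inv_eq_iff_eq_mul.mp hc).symm
    have h0 := h.inf_eq_bot ht htM hT htT hTM
    exact Subtype.ext (Subgroup.mem_bot.mp (h0 ▸ Subgroup.mem_inf.mpr ⟨x.2, hxM⟩))
  have hinv : Function.Involutive φ := fun x => Subtype.ext (by
    show t * (t * x.1 * t⁻¹) * t⁻¹ = x.1
    rw [StronglyEmbedded.inv_eq_self ht]
    calc t * (t * x.1 * t) * t = (t * t) * x.1 * (t * t) := by group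
      _ = x.1 := by rw [StronglyEmbedded.mul_self_eq_one ht, one_mul, mul_one])
  intro x hx
  exact ⟨congrArg Subtype.val (congrFun (hfix.coe_eq_inv_of_involutive hinv) ⟨x, hx⟩),
    fun y hy => congrArg Subtype.val (hfix.commute_all_of_involutive hinv ⟨x, hx⟩ ⟨y, hy⟩).eq⟩

/-- Every invariant `p`-subgroup lies in a maximal one, which outside `M` is a Sylow subgroup. -/
theorem Emb.exists_sylow (h : Emb G p S M) {t : G} (ht : orderOf t = 2) (htM : t ∈ M)
    {T : Subgroup G} (hT : IsPGroup p T) (htT : t ∈ Subgroup.normalizer (T : Set G))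
    (hTM : ¬ T ≤ M) :
    ∃ P : Sylow p G, T ≤ P ∧ t ∈ Subgroup.normalizer ((P : Subgroup G) : Set G) ∧
      ¬ (P : Subgroup G) ≤ M := by
  obtain ⟨R, hle, hR⟩ := Finite.exists_le_maximal
    (p := fun R : Subgroup G => IsPGroup p R ∧ t ∈ Subgroup.normalizer (R : Set G)) (a := T)
    ⟨hT, htT⟩
  obtain ⟨P, hP⟩ := h.isSylow ht htM hR.1.1 hR.1.2 (fun hh => hTM (hle.trans hh))
    fun R' h1 h2 h3 => le_antisymm (hR.2 ⟨h1, h2⟩ h3) h3
  exact ⟨P, hP ▸ hle, hP ▸ hR.1.2, hP ▸ fun hh => hTM (hle.trans hh)⟩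

/-- The product of `t ∈ M` with an involution outside `M` is a `p`-element. -/
theorem Emb.product (h : Emb G p S M) {t u : G} (ht : orderOf t = 2) (htM : t ∈ M)
    (hu : orderOf u = 2) (huM : u ∉ M) :
    t * u ∉ M ∧ IsPGroup p (Subgroup.zpowers (t * u)) ∧
      t ∈ Subgroup.normalizer (Subgroup.zpowers (t * u) : Set G) := by
  haveI : Fact p.Prime := ⟨h.cex.prime⟩
  set x := t * u with hx
  have hnot : x ∉ M := fun hh => huM (by
    simpa [hx, ← mul_assoc, StronglyEmbedded.mul_self_eq_one ht] using M.mul_mem htM hh)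
  have hinv : t * x * t⁻¹ = x⁻¹ := by
    rw [hx, mul_inv_rev, StronglyEmbedded.inv_eq_self ht, StronglyEmbedded.inv_eq_self hu,
      ← mul_assoc t t u, StronglyEmbedded.mul_self_eq_one ht, one_mul]
  have hnorm : ∀ i : ℕ, t ∈ Subgroup.normalizer (Subgroup.zpowers (x ^ i) : Set G) := by
    intro i
    refine mem_normalizer_of_conj_mem fun y hy => ?_
    obtain ⟨j, rfl⟩ := Subgroup.mem_zpowers_iff.mp hy
    rw [← conj_zpow, ← conj_pow, hinv, inv_pow, inv_zpow]
    exact inv_mem (Subgroup.zpow_mem_zpowers _ _)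
  obtain ⟨a, b, hab, ⟨k, hk⟩, hb⟩ := exists_primary_split x p
  have hc := h.cex.commute_of_normalizes (not_dvd_card_zpowers hb) (h.cex.not_dvd_of_sq (sq_eq ht))
    (hnorm b) (Subgroup.mem_zpowers (x ^ b))
  have hsq : (x ^ b) ^ 2 = 1 := by
    have h1 : t * x ^ b * t⁻¹ = (x ^ b)⁻¹ := by rw [← conj_pow, hinv, inv_pow]
    rw [hc, mul_inv_cancel_right] at h1
    rw [sq]
    exact mul_eq_one_iff_eq_inv.mpr h1
  have hodd : Odd (orderOf (x ^ b)) := Odd.of_dvd_nat
    (StronglyEmbedded.odd_orderOf_mul h.se ht htM hu huM) (orderOf_pow_dvd b)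
  have hb1 : x ^ b = 1 := by
    refine orderOf_eq_one_iff.mp ?_
    have hd := orderOf_dvd_of_pow_eq_one hsq
    rcases (Nat.dvd_prime Nat.prime_two).mp hd with h1 | h1
    · exact h1
    · rw [h1] at hodd; exact absurd hodd (by decide)
  refine ⟨hnot, isPGroup_zpowers (k := k) ?_, by simpa using hnorm 1⟩
  rw [hab, hb1, mul_one]
  exact hk

/-- The odd core of `M` is a `p'`-group. -/
theorem Emb.not_dvd_core (h : Emb G p S M) {t : G} (ht : orderOf t = 2) (htM : t ∈ M) :
    ¬ p ∣ Nat.card (oddIn M) := by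
  classical
  haveI : Fact p.Prime := ⟨h.cex.prime⟩
  haveI : Fact (Nat.Prime 2) := ⟨Nat.prime_two⟩
  intro hdvd
  set E := omegaTwo (S : Subgroup G) h.comm with hE
  have hEc : IsMulCommutative E := ⟨⟨fun a b => Subtype.ext (h.comm _ a.2.1 _ b.2.1)⟩⟩
  have hEn : E ≤ Subgroup.normalizer (oddIn M : Set G) := fun e he =>
    le_normalizer_oddIn M (h.sylow_le he.1)
  have hE2 : IsPGroup 2 E := S.2.to_le fun x hx => hx.1
  have hcop : (Nat.card E).Coprime (Nat.card (oddIn M)) := by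
    obtain ⟨r, hr⟩ := IsPGroup.iff_card.mp hE2
    rw [hr]
    exact Nat.Coprime.pow_left r ((Nat.prime_two.coprime_iff_not_dvd).mpr (not_dvd_oddIn M))
  obtain ⟨P₀, hP₀⟩ := Coprime.exists_invariant_sylow (p := p) hEn hcop
    (Or.inl (Coprime.isSolvable_of_isMulCommutative hEc))
  set Ps := (P₀ : Subgroup (oddIn M)).map (oddIn M).subtype with hPs
  have hPne : Ps ≠ ⊥ := by
    rw [hPs, Ne, Subgroup.map_eq_bot_iff_of_injective _ (oddIn M).subtype_injective]
    exact P₀.ne_bot_of_dvd_card hdvd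
  have hPM : Ps ≤ M := (Subgroup.map_subtype_le _).trans (oddIn_le M)
  obtain ⟨B, hBE, ⟨a, haE, hBa⟩, hB⟩ : ∃ B : Subgroup G, B ≤ E ∧
      (∃ a ∈ E, B ⊔ Subgroup.zpowers a = E) ∧ ¬ Ps ⊓ Subgroup.centralizer (B : Set G) ≤ ⊥ := by
    by_contra! hall
    refine hPne (le_bot_iff.mp (Coprime.le_of_cocyclic hEc hP₀ (Nat.Coprime.coprime_dvd_right
      (Subgroup.card_dvd_of_le (Subgroup.map_subtype_le _)) hcop) ?_))
    rintro B hB ⟨a, ha, hBa⟩
    exact hall B hB ⟨a, ha, hBa⟩
  obtain ⟨b, ⟨hbP, hbB⟩, hb1⟩ := SetLike.not_le_iff_exists.mp hB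
  rw [Subgroup.mem_bot] at hb1
  have h8 : 8 ≤ Nat.card E := h.cex.eight_le S h.comm
  have hB4 : 3 ≤ Nat.card B := by
    have hn : Subgroup.zpowers a ≤ Subgroup.normalizer (B : Set G) := by
      refine Subgroup.zpowers_le.mpr (mem_normalizer_of_conj_mem fun y hy => ?_)
      rw [h.comm a haE.1 y (hBE hy).1, mul_inv_cancel_right]
      exact hy
    have hd := card_sup_dvd hn
    rw [hBa, Nat.card_zpowers] at hd
    have hle := Nat.le_of_dvd (Nat.mul_pos Nat.card_pos (orderOf_pos a)) hd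
    have h2 : orderOf a ≤ 2 := orderOf_le_of_pow_eq_one two_pos haE.2
    nlinarith
  obtain ⟨e₁, he₁⟩ : ∃ e : B, e ≠ 1 := by
    haveI : Nontrivial B := Finite.one_lt_card_iff_nontrivial.mp (by omega)
    exact exists_ne 1
  obtain ⟨e₂, he₂, he₂'⟩ : ∃ e : B, e ≠ 1 ∧ e ≠ e₁ := by
    by_contra! hall
    have hsub : (Set.univ : Set B) ⊆ {1, e₁} := fun e _ => by
      by_cases he : e = 1
      · exact Or.inl he
      · exact Or.inr (hall e he)
    have hcard := Set.ncard_le_ncard hsub (Set.toFinite _)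
    rw [Set.ncard_univ] at hcard
    have := Set.ncard_insert_le (1 : B) {e₁}
    rw [Set.ncard_singleton] at this
    omega
  have hord : ∀ e : B, e ≠ 1 → orderOf e.1 = 2 := fun e he =>
    orderOf_eq_prime (hBE e.2).2 fun h1 => he (Subtype.ext h1)
  have hec : ∀ e : B, e.1 ∈ Subgroup.centralizer ({b} : Set G) := fun e =>
    Subgroup.mem_centralizer_singleton_iff.mpr (Subgroup.mem_centralizer_iff.mp hbB _ e.2)
  have hCb : Subgroup.centralizer ({b} : Set G) ≤ M :=
    h.four_le (h.cex.centralizer_ne_top hb1) (hord e₁ he₁) (hord e₂ he₂)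
      (fun h1 => he₂' (Subtype.ext h1).symm) (h.comm _ (hBE e₁.2).1 _ (hBE e₂.2).1)
      (h.sylow_le (hBE e₁.2).1) (hec e₁) (hec e₂)
  obtain ⟨u, huM, hu⟩ := StronglyEmbedded.exists_involution_not_mem h.se
  obtain ⟨hxM, hxp, hxn⟩ := h.product ht htM hu huM
  obtain ⟨T, -, htT, hTM⟩ := h.exists_sylow ht htM hxp hxn
    fun hle => hxM (hle (Subgroup.mem_zpowers _))
  obtain ⟨Q, hQ⟩ := ((P₀.isPGroup'.map _ : IsPGroup p Ps).to_le
    (Subgroup.zpowers_le.mpr hbP)).exists_le_sylow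
  obtain ⟨g, hg⟩ := MulAction.exists_smul_eq G Q T
  have hb' : g * b * g⁻¹ ∈ (T : Subgroup G) := by
    rw [← hg, Sylow.coe_subgroup_smul]
    exact ⟨b, hQ (Subgroup.mem_zpowers b), rfl⟩
  have hinv := (h.inverts ht htM T.2 htT hTM _ hb').1
  have hgt : g⁻¹ * t * g ∈ M := by
    have hcb : g⁻¹ * t * g * b * (g⁻¹ * t * g)⁻¹ = b⁻¹ := by
      calc g⁻¹ * t * g * b * (g⁻¹ * t * g)⁻¹ = g⁻¹ * (t * (g * b * g⁻¹) * t⁻¹) * g := by group
        _ = g⁻¹ * (g * b * g⁻¹)⁻¹ * g := by rw [hinv]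
        _ = b⁻¹ := by group
    refine StronglyEmbedded.mem_of_conj_mem h.se (hord e₁ he₁) (h.sylow_le (hBE e₁.2).1)
      (hCb (Subgroup.mem_centralizer_singleton_iff.mpr ?_))
    set s := g⁻¹ * t * g
    have hc : Commute e₁.1 b := Subgroup.mem_centralizer_singleton_iff.mp (hec e₁)
    have hc' : Commute (s * e₁.1 * s⁻¹) (s * b * s⁻¹) := hc.map (MulAut.conj s).toMonoidHom
    rw [hcb] at hc'
    simpa using hc'.inv_right.eq
  have hord' : orderOf (g⁻¹ * t * g) = 2 := by
    have h1 := StronglyEmbedded.orderOf_conj g⁻¹ t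
    rw [inv_inv] at h1
    rw [h1, ht]
  have hgM : g ∈ M := StronglyEmbedded.mem_of_conj_mem h.se hord' hgt (by
    rw [show g * (g⁻¹ * t * g) * g⁻¹ = t by group]; exact htM)
  have h0 := h.inf_eq_bot ht htM T.2 htT hTM
  have hmem : g * b * g⁻¹ ∈ (T : Subgroup G) ⊓ M :=
    Subgroup.mem_inf.mpr ⟨hb', mul_mem (mul_mem hgM (hPM hbP)) (inv_mem hgM)⟩
  rw [h0, Subgroup.mem_bot, conj_eq_one_iff] at hmem
  exact hb1 hmem

/-- The final count. -/
theorem Emb.false (h : Emb G p S M) : False := by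
  classical
  haveI : Fact p.Prime := ⟨h.cex.prime⟩
  haveI : Fact (Nat.Prime 2) := ⟨Nat.prime_two⟩
  obtain ⟨y₀, hy₀, ⟨k₀, hk₀⟩, e₀, he₀, hye₀⟩ := h.cex.exists_moving S h.comm
  set t := e₀ with htdef
  have ht1 : t ≠ 1 := fun h1 => hye₀ (by rw [h1, mul_one, one_mul])
  have ht : orderOf t = 2 := orderOf_eq_prime he₀.2 ht1
  have htM : t ∈ M := h.sylow_le he₀.1
  have hK := h.not_dvd_core ht htM
  set C := Subgroup.centralizer ({t} : Set G) with hC
  have hCM : C ≤ M := StronglyEmbedded.centralizer_le h.se ht htM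
  have hCp : ¬ p ∣ Nat.card C := by
    intro hd
    obtain ⟨⟨a, haC⟩, ha⟩ := exists_prime_orderOf_dvd_card' (G := C) p hd
    rw [← Subgroup.orderOf_coe] at ha
    have hap : IsPGroup p (Subgroup.zpowers a) :=
      isPGroup_zpowers (k := 1) (by rw [pow_one]; exact ha ▸ pow_orderOf_eq_one a)
    have htn : t ∈ Subgroup.normalizer (Subgroup.zpowers a : Set G) := by
      refine mem_normalizer_of_conj_mem fun y hy => ?_
      obtain ⟨j, rfl⟩ := Subgroup.mem_zpowers_iff.mp hy
      have hc : Commute a t := Subgroup.mem_centralizer_singleton_iff.mp haC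
      rw [(hc.symm.zpow_right j).eq, mul_inv_cancel_right]
      exact Subgroup.zpow_mem_zpowers a j
    have haK := h.core_mem ht htM hap (Subgroup.zpowers_le.mpr (hCM haC)) htn
      (Subgroup.mem_zpowers a)
    have hd2 := orderOf_dvd_natCard (⟨a, haK⟩ : oddIn M)
    rw [← Subgroup.orderOf_coe, ha] at hd2
    exact hK hd2
  have hCw : ∀ w : G, orderOf w = 2 → ∀ a : G, a * w = w * a → ¬ p ∣ orderOf a := by
    intro w hw a hwa hd
    obtain ⟨g, hg⟩ := isConj_iff.mp (StronglyEmbedded.isConj_involutions h.se hw ht)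
    have hga : g * a * g⁻¹ ∈ C := by
      refine Subgroup.mem_centralizer_singleton_iff.mpr ?_
      rw [← hg]
      exact ((show Commute a w from hwa).map (MulAut.conj g).toMonoidHom).eq
    have hd2 := orderOf_dvd_natCard (⟨_, hga⟩ : C)
    rw [← Subgroup.orderOf_coe, StronglyEmbedded.orderOf_conj] at hd2
    exact hCp (hd.trans hd2)
  have hCc : ∀ a ∈ C, ∀ b ∈ C, a * b = b * a := h.cex.comm C hCp
  -- an element of order `p` in `M` has no fixed point on the involutions outside `M`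
  let J : Type _ := {u : G // orderOf u = 2 ∧ u ∉ M}
  obtain ⟨y, hyM, hyo⟩ : ∃ y ∈ M, orderOf y = p := by
    have hy1 : y₀ ≠ 1 := fun h1 => hye₀ (by rw [h1, one_mul, mul_one])
    have hyp : p ∣ orderOf y₀ := by
      obtain ⟨i, -, hi⟩ := (Nat.dvd_prime_pow h.cex.prime).mp (orderOf_dvd_of_pow_eq_one hk₀)
      rcases i with _ | i
      · rw [pow_zero, orderOf_eq_one_iff] at hi; exact absurd hi hy1
      · rw [hi]; exact dvd_pow_self p (Nat.succ_ne_zero i)
    refine ⟨y₀ ^ (orderOf y₀ / p), pow_mem (h.le hy₀) _, ?_⟩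
    exact orderOf_pow_orderOf_div (orderOf_pos y₀).ne' hyp
  have hJ : p ∣ Nat.card J := by
    set Z := Subgroup.zpowers y
    have hconj : ∀ (z : Z) (u : J), orderOf ((z : G) * u.1 * (z : G)⁻¹) = 2 ∧
        (z : G) * u.1 * (z : G)⁻¹ ∉ M := fun z u =>
      ⟨by rw [StronglyEmbedded.orderOf_conj]; exact u.2.1, fun hh => u.2.2 (by
        have hzM : (z : G) ∈ M := Subgroup.zpowers_le.mpr hyM z.2
        have := mul_mem (mul_mem (inv_mem hzM) hh) hzM
        rwa [show (z : G)⁻¹ * ((z : G) * u.1 * (z : G)⁻¹) * (z : G) = u.1 by group] at this)⟩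
    letI : MulAction Z J :=
      { smul := fun z u => ⟨(z : G) * u.1 * (z : G)⁻¹, hconj z u⟩
        one_smul := fun u => Subtype.ext (show ((1 : Z) : G) * u.1 * ((1 : Z) : G)⁻¹ = u.1 by simp)
        mul_smul := fun z z' u => Subtype.ext (show ((z * z' : Z) : G) * u.1 * ((z * z' : Z) : G)⁻¹ =
          (z : G) * ((z' : G) * u.1 * (z' : G)⁻¹) * (z : G)⁻¹ by push_cast; group) }
    have hZp : IsPGroup p Z :=
      isPGroup_zpowers (k := 1) (by rw [pow_one]; exact hyo ▸ pow_orderOf_eq_one y)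
    have hfix : IsEmpty (MulAction.fixedPoints Z J) := by
      refine ⟨fun ⟨u, hu⟩ => ?_⟩
      have h1 : y * u.1 * y⁻¹ = u.1 := congrArg Subtype.val (hu ⟨y, Subgroup.mem_zpowers y⟩)
      exact hCw u.1 u.2.1 y (mul_inv_eq_iff_eq_mul.mp h1) (hyo.symm ▸ dvd_rfl)
    have hmod := hZp.card_modEq_card_fixedPoints J
    rw [Nat.card_of_isEmpty (α := MulAction.fixedPoints Z J)] at hmod
    exact (Nat.modEq_zero_iff_dvd).mp hmod
  -- the invariant Sylow subgroups outside `M`
  let 𝒯 : Set (Sylow p G) := {T | t ∈ Subgroup.normalizer ((T : Subgroup G) : Set G) ∧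
    ¬ (T : Subgroup G) ≤ M}
  have hbot : ∀ T ∈ 𝒯, ∀ x ∈ (T : Subgroup G), x ∈ M → x = 1 := fun T hT x hx hxM => by
    have h0 := h.inf_eq_bot ht htM T.2 hT.1 hT.2
    exact Subgroup.mem_bot.mp (h0 ▸ Subgroup.mem_inf.mpr ⟨hx, hxM⟩)
  have huniq : ∀ T₁ ∈ 𝒯, ∀ T₂ ∈ 𝒯, ∀ x ∈ (T₁ : Subgroup G), x ∈ (T₂ : Subgroup G) → x ≠ 1 →
      T₁ = T₂ := by
    intro T₁ hT₁ T₂ hT₂ x hx₁ hx₂ hx1
    set L := Subgroup.centralizer ({x} : Set G) with hL
    have hxp : p ∣ orderOf x := by
      obtain ⟨k, hk⟩ := exists_pow_eq_one T₁.2 hx₁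
      obtain ⟨i, -, hi⟩ := (Nat.dvd_prime_pow h.cex.prime).mp (orderOf_dvd_of_pow_eq_one hk)
      rcases i with _ | i
      · rw [pow_zero, orderOf_eq_one_iff] at hi; exact absurd hi hx1
      · rw [hi]; exact dvd_pow_self p (Nat.succ_ne_zero i)
    have hLsol := h.cex.solvable_centralizer hx1
    haveI := hLsol
    have hQ : pPrimeCore p ↥L = ⊥ := by
      by_contra hne
      set Q := (pPrimeCore p ↥L).map L.subtype with hQdef
      have htL : t ∈ Subgroup.normalizer (L : Set G) := by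
        refine mem_normalizer_of_conj_mem fun c hc => ?_
        have hc' : Commute c x := Subgroup.mem_centralizer_singleton_iff.mp hc
        refine Subgroup.mem_centralizer_singleton_iff.mpr ?_
        have hm : Commute (t * c * t⁻¹) (t * x * t⁻¹) := hc'.map (MulAut.conj t).toMonoidHom
        rw [(h.inverts ht htM T₁.2 hT₁.1 hT₁.2 x hx₁).1] at hm
        simpa using hm.inv_right.eq
      have htQ : t ∈ Subgroup.normalizer (Q : Set G) := by
        refine mem_normalizer_of_conj_mem ?_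
        rintro _ ⟨q, hq, rfl⟩
        have hto : ∀ c : L, t * (c : G) * t⁻¹ ∈ L := fun c => conj_mem_of_mem_normalizer htL c.2
        have hfrom : ∀ c : L, t⁻¹ * (c : G) * t ∈ L := fun c => by
          simpa using conj_mem_of_mem_normalizer (inv_mem htL) c.2
        let e : L ≃* L :=
          { toFun := fun c => ⟨t * (c : G) * t⁻¹, hto c⟩
            invFun := fun c => ⟨t⁻¹ * (c : G) * t, hfrom c⟩
            left_inv := fun c => Subtype.ext (show t⁻¹ * (t * (c : G) * t⁻¹) * t = c by group)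
            right_inv := fun c => Subtype.ext (show t * (t⁻¹ * (c : G) * t) * t⁻¹ = c by group)
            map_mul' := fun c d => Subtype.ext (show t * ((c : G) * d) * t⁻¹ =
              (t * c * t⁻¹) * (t * d * t⁻¹) by group) }
        exact ⟨e q, Constrained.pPrimeCore_map e p ▸ Subgroup.mem_map_of_mem e.toMonoidHom hq, rfl⟩
      have hQp : ¬ p ∣ Nat.card Q := by
        rw [hQdef, Constrained.card_map_of_injective _ L.subtype_injective]
        exact Constrained.pPrimeCore_not_dvd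
      obtain ⟨z, hzQ, hz1⟩ : ∃ z ∈ Q, z ≠ 1 := by
        refine (Subgroup.bot_or_exists_ne_one Q).resolve_left ?_
        rw [hQdef, Subgroup.map_eq_bot_iff_of_injective _ L.subtype_injective]
        exact hne
      have hzC : z ∈ C := Subgroup.mem_centralizer_singleton_iff.mpr
        (h.cex.commute_of_normalizes hQp (h.cex.not_dvd_of_sq (sq_eq ht)) htQ hzQ).symm
      obtain ⟨e, he, he1, hne'⟩ : ∃ e ∈ (S : Subgroup G), orderOf e = 2 ∧ e ≠ t :=
        ⟨y₀ * t * y₀⁻¹, conj_mem_of_mem_normalizer hy₀ he₀.1,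
          by rw [StronglyEmbedded.orderOf_conj, ht],
          fun h1 => hye₀ (mul_inv_eq_iff_eq_mul.mp h1)⟩
      have heC : e ∈ C := Subgroup.mem_centralizer_singleton_iff.mpr (h.comm e he t he₀.1)
      have htC : t ∈ C := Subgroup.mem_centralizer_singleton_iff.mpr rfl
      have hzM := h.four_le (h.cex.centralizer_ne_top hz1) ht he1 (Ne.symm hne')
        (h.comm t he₀.1 e he) htM
        (Subgroup.mem_centralizer_singleton_iff.mpr (hCc t htC z hzC))
        (Subgroup.mem_centralizer_singleton_iff.mpr (hCc e heC z hzC))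
      have hzx : z * x = x * z :=
        Subgroup.mem_centralizer_singleton_iff.mp (Subgroup.map_subtype_le _ hzQ)
      exact hx1 (hbot T₁ hT₁ x hx₁ (hzM (Subgroup.mem_centralizer_singleton_iff.mpr hzx.symm)))
    have hcore := SolvableCore.centralizer_pCore_le (p := p) hQ
    haveI := SolvableCore.pCore_normal' p ↥L
    have hTle : ∀ T ∈ 𝒯, x ∈ (T : Subgroup G) →
        ∃ R : Sylow p L, (R : Subgroup L) = (T : Subgroup G).subgroupOf L ∧
          (R : Subgroup L) = pCore p ↥L ∧ (T : Subgroup G) ≤ L := by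
      intro T hT hxT
      have hc := fun a ha => (h.inverts ht htM T.2 hT.1 hT.2 a ha).2
      have hTL : (T : Subgroup G) ≤ L := fun a ha =>
        Subgroup.mem_centralizer_singleton_iff.mpr (hc a ha x hxT)
      refine ⟨T.subtype hTL, rfl, le_antisymm (fun a ha => hcore ?_)
        (Constrained.isPGroup_pCore.le_sylow_of_normal (T.subtype hTL)), hTL⟩
      refine Subgroup.mem_centralizer_iff.mpr fun b hb => Subtype.ext ?_
      have hb' := Constrained.isPGroup_pCore.le_sylow_of_normal (T.subtype hTL) hb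
      exact hc _ (Subgroup.mem_subgroupOf.mp hb') _ (Subgroup.mem_subgroupOf.mp ha)
    obtain ⟨R₁, h11, h12, h13⟩ := hTle T₁ hT₁ hx₁
    obtain ⟨R₂, h21, h22, h23⟩ := hTle T₂ hT₂ hx₂
    refine Sylow.ext (le_antisymm ?_ ?_)
    · intro a ha
      have hm : (⟨a, h13 ha⟩ : L) ∈ (T₂ : Subgroup G).subgroupOf L := by
        rw [← h21, h22, ← h12, h11]; exact ha
      exact hm
    · intro a ha
      have hm : (⟨a, h23 ha⟩ : L) ∈ (T₁ : Subgroup G).subgroupOf L := by
        rw [← h11, h12, ← h22, h21]; exact ha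
      exact hm
  obtain ⟨f, hf⟩ : ∃ f : ℕ, ∀ T : Sylow p G, Nat.card (T : Subgroup G) = p ^ f :=
    ⟨_, fun T => T.card_eq_multiplicity⟩
  have hf1 : f ≠ 0 := by
    intro hf0
    obtain ⟨u, huM, hu⟩ := StronglyEmbedded.exists_involution_not_mem h.se
    obtain ⟨hxM, hxp, hxn⟩ := h.product ht htM hu huM
    obtain ⟨T, hle, -, -⟩ := h.exists_sylow ht htM hxp hxn
      fun hle => hxM (hle (Subgroup.mem_zpowers _))
    have hc := hf T
    rw [hf0, pow_zero, Subgroup.card_eq_one] at hc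
    rw [hc] at hle
    exact hxM ((Subgroup.mem_bot.mp (hle (Subgroup.mem_zpowers _))).symm ▸ M.one_mem)
  have hinv' : ∀ T ∈ 𝒯, ∀ x ∈ (T : Subgroup G), x ≠ 1 → orderOf (t * x) = 2 ∧ t * x ∉ M := by
    intro T hT x hx hx1
    have hnot : t * x ∉ M := fun hh => hx1 (hbot T hT x hx (by
      simpa [← mul_assoc, StronglyEmbedded.mul_self_eq_one ht] using M.mul_mem htM hh))
    refine ⟨StronglyEmbedded.orderOf_two_iff.mpr ⟨?_, fun h1 => hnot (h1 ▸ M.one_mem)⟩, hnot⟩
    have hi := (h.inverts ht htM T.2 hT.1 hT.2 x hx).1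
    rw [StronglyEmbedded.inv_eq_self ht] at hi
    rw [show t * x * (t * x) = t * x * t * x by group, hi, inv_mul_cancel]
  let Φ : (Σ T : 𝒯, {x : G // x ∈ ((T : Sylow p G) : Subgroup G) ∧ x ≠ 1}) → J :=
    fun q => ⟨t * q.2.1, hinv' _ q.1.2 _ q.2.2.1 q.2.2.2⟩
  have hΦ : Function.Bijective Φ := by
    refine ⟨?_, ?_⟩
    · rintro ⟨⟨T₁, hT₁⟩, x, hx, hx1⟩ ⟨⟨T₂, hT₂⟩, x', hx', hx1'⟩ he
      obtain rfl : x = x' := mul_left_cancel (congrArg Subtype.val he)
      obtain rfl := huniq T₁ hT₁ T₂ hT₂ x hx hx' hx1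
      rfl
    · rintro ⟨u, hu, huM⟩
      obtain ⟨hxM, hxp, hxn⟩ := h.product ht htM hu huM
      obtain ⟨T, hle, htT, hTM⟩ := h.exists_sylow ht htM hxp hxn
        fun hle => hxM (hle (Subgroup.mem_zpowers _))
      refine ⟨⟨⟨T, htT, hTM⟩, t * u, hle (Subgroup.mem_zpowers _),
        fun h1 => hxM (h1 ▸ M.one_mem)⟩, Subtype.ext ?_⟩
      show t * (t * u) = u
      rw [← mul_assoc, StronglyEmbedded.mul_self_eq_one ht, one_mul]
  have hcardJ : Nat.card J = Nat.card 𝒯 * (p ^ f - 1) := by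
    rw [← Nat.card_congr (Equiv.ofBijective Φ hΦ)]
    letI : Fintype 𝒯 := Fintype.ofFinite _
    rw [Nat.card_sigma, Finset.sum_congr rfl (g := fun _ => p ^ f - 1) fun T _ => ?_,
      Finset.sum_const, Finset.card_univ, smul_eq_mul, Nat.card_eq_fintype_card]
    have e1 : {x : G // x ∈ ((T : Sylow p G) : Subgroup G) ∧ x ≠ 1} ≃
        {x : ((T : Sylow p G) : Subgroup G) // x ≠ 1} :=
      { toFun := fun e => ⟨⟨e.1, e.2.1⟩, fun h1 => e.2.2 (congrArg Subtype.val h1)⟩
        invFun := fun e => ⟨e.1.1, e.1.2, fun h1 => e.2 (Subtype.ext h1)⟩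
        left_inv := fun _ => rfl
        right_inv := fun _ => rfl }
    have h2 : Nat.card {x : ((T : Sylow p G) : Subgroup G) // x ≠ 1} + 1 =
        Nat.card ((T : Sylow p G) : Subgroup G) := by
      rw [← Finite.card_option]
      exact Nat.card_congr (Equiv.optionSubtypeNe (1 : ((T : Sylow p G) : Subgroup G)))
    rw [Nat.card_congr e1, ← hf T]
    omega
  have hTC : Nat.card 𝒯 ∣ Nat.card C := by
    by_cases hempty : 𝒯 = ∅
    · exfalso
      obtain ⟨u, huM, hu⟩ := StronglyEmbedded.exists_involution_not_mem h.se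
      obtain ⟨hxM, hxp, hxn⟩ := h.product ht htM hu huM
      obtain ⟨T, hle, htT, hTM⟩ := h.exists_sylow ht htM hxp hxn
        fun hle => hxM (hle (Subgroup.mem_zpowers _))
      exact (hempty ▸ (show T ∈ 𝒯 from ⟨htT, hTM⟩) : T ∈ (∅ : Set (Sylow p G)))
    obtain ⟨T₀, hT₀⟩ := Set.nonempty_iff_ne_empty.mpr hempty
    have horb : MulAction.orbit C T₀ = 𝒯 := by
      ext T
      constructor
      · rintro ⟨c, rfl⟩
        have hcM : (c : G) ∈ M := hCM c.2
        have hct : Commute (c : G) t := Subgroup.mem_centralizer_singleton_iff.mp c.2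
        refine ⟨mem_normalizer_of_conj_mem fun z hz => ?_, fun hle => hT₀.2 fun z hz => ?_⟩
        · dsimp only at hz ⊢
          rw [Subgroup.smul_def, Sylow.coe_subgroup_smul] at hz ⊢
          obtain ⟨w, hw, rfl⟩ := hz
          refine ⟨t * w * t⁻¹, conj_mem_of_mem_normalizer hT₀.1 hw, ?_⟩
          simp only [MulDistribMulAction.toMonoidEnd_apply, MulDistribMulAction.toMonoidHom_apply,
            MulAut.smul_def, MulAut.conj_apply]
          calc (c : G) * (t * w * t⁻¹) * (c : G)⁻¹ = (c : G) * t * w * ((c : G) * t)⁻¹ := by group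
            _ = _ := by rw [hct.eq]; group
        · have hm : (c : G) * z * (c : G)⁻¹ ∈ ((c • T₀ : Sylow p G) : Subgroup G) := by
            rw [Subgroup.smul_def, Sylow.coe_subgroup_smul]
            exact ⟨z, hz, rfl⟩
          have := mul_mem (mul_mem (inv_mem hcM) (hle hm)) hcM
          rwa [show (c : G)⁻¹ * ((c : G) * z * (c : G)⁻¹) * (c : G) = z by group] at this
      · rintro ⟨htT, hTM⟩
        obtain ⟨g, hg⟩ := MulAction.exists_smul_eq G T₀ T
        set L := Subgroup.normalizer ((T₀ : Subgroup G) : Set G) with hLdef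
        have hsL : g⁻¹ * t * g ∈ L := by
          refine Sylow.smul_eq_iff_mem_normalizer.mp ?_
          rw [mul_smul, mul_smul, hg, Sylow.smul_eq_iff_mem_normalizer.mpr htT, ← hg,
            inv_smul_smul]
        have hLtop : L ≠ ⊤ := h.cex.normalizer_pGroup_ne_top T₀.2 fun h0 => hf1 (by
          have := hf T₀
          rw [h0, Subgroup.card_bot] at this
          exact (Nat.pow_eq_one.mp this.symm).resolve_left h.cex.prime.ne_one)
        obtain ⟨-, hinvol⟩ := h.outside hLtop (fun hle => hT₀.2 (Subgroup.le_normalizer.trans hle))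
          ht htM hT₀.1
        have hgo : orderOf (g⁻¹ * t * g) = 2 := by
          have h1 := StronglyEmbedded.orderOf_conj g⁻¹ t
          rw [inv_inv] at h1
          rw [h1, ht]
        obtain ⟨l, hl, hlt⟩ := hinvol _ hgo hsL
        have hcC : g * l⁻¹ ∈ C := by
          refine Subgroup.mem_centralizer_singleton_iff.mpr ?_
          calc g * l⁻¹ * t = g * l⁻¹ * (l * (g⁻¹ * t * g) * l⁻¹) := by rw [hlt]
            _ = _ := by group
        refine ⟨⟨g * l⁻¹, hcC⟩, ?_⟩
        show (g * l⁻¹) • T₀ = T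
        rw [mul_smul, Sylow.smul_eq_iff_mem_normalizer.mpr (inv_mem hl), hg]
    rw [← horb, Nat.card_congr (MulAction.orbitEquivQuotientStabilizer C T₀)]
    exact Subgroup.card_quotient_dvd_card _
  rw [hcardJ] at hJ
  rcases h.cex.prime.dvd_mul.mp hJ with h1 | h1
  · exact hCp (h1.trans hTC)
  · have h2 : p ∣ p ^ f := dvd_pow_self p hf1
    have h3 := Nat.dvd_sub h2 h1
    rw [Nat.sub_sub_self (Nat.one_le_pow _ _ h.cex.prime.pos)] at h3
    exact h.cex.prime.not_dvd_one h3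

end CfsgLib.SmallExp
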