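import Cfsg.Agent.SmallExp.Embedded
import Mathlib.GroupTheory.FixedPointFree

/-!
# Groups all of whose `p'`-subgroups are abelian: `p`-subgroups invariant under an involution
-/

set_option autoImplicit false
set_option linter.style.haveILetI false

namespace CfsgLib.SmallExp

open Cfsg CfsgLib

variable {G : Type*} [Group G] [Finite G] {p : ℕ}

/-- The situation after finding the strongly embedded subgroup. -/
structure Emb (G : Type*) [Group G] [Finite G] (p : ℕ) (S : Sylow 2 G) (M : Subgroup G) : Prop where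
  cex : Cex G p
  se : IsStronglyEmbedded M
  le : Subgroup.normalizer ((S : Subgroup G) : Set G) ≤ M

variable {S : Sylow 2 G} {M : Subgroup G}

theorem Emb.comm (h : Emb G p S M) :
    ∀ a ∈ (S : Subgroup G), ∀ b ∈ (S : Subgroup G), a * b = b * a := h.cex.sylow_comm S

theorem Emb.sylow_le (h : Emb G p S M) : (S : Subgroup G) ≤ M :=
  Subgroup.le_normalizer.trans h.le

theorem Emb.solvable (h : Emb G p S M) : Group.IsSolvable M :=
  h.cex.sub M (StronglyEmbedded.ne_top h.se)

theorem two_dvd_of_mem {L : Subgroup G} {t : G} (ht : orderOf t = 2) (h : t ∈ L) :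
    2 ∣ Nat.card L :=
  even_iff_two_dvd.mp (StronglyEmbedded.even_card_of_mem ht h)

theorem sq_eq {t : G} (ht : orderOf t = 2) : t ^ 2 = 1 := ht ▸ pow_orderOf_eq_one t

/-- A Sylow 2-subgroup of a subgroup through a given involution. -/
theorem Emb.exists_two_max (h : Emb G p S M) {L : Subgroup G} {t : G} (ht : orderOf t = 2)
    (htL : t ∈ L) :
    ∃ T : Subgroup G, t ∈ T ∧ T ≤ L ∧ IsPGroup 2 T ∧
      (∀ R : Subgroup G, R ≤ L → IsPGroup 2 R → T ≤ R → R ≤ T) ∧
      ∀ a ∈ T, ∀ b ∈ T, a * b = b * a := by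
  obtain ⟨T, hle, hT⟩ := Finite.exists_le_maximal
    (p := fun R : Subgroup G => R ≤ L ∧ IsPGroup 2 R)
    (a := Subgroup.zpowers t)
    ⟨Subgroup.zpowers_le.mpr htL, isPGroup_zpowers (k := 1) (by rw [pow_one, sq_eq ht])⟩
  exact ⟨T, hle (Subgroup.mem_zpowers t), hT.1.1, hT.1.2,
    fun R hR hRp h' => hT.2 ⟨hR, hRp⟩ h', h.cex.comm T (h.cex.isPGroup_two hT.1.2)⟩

/-- Conjugacy of maximal 2-subgroups of a subgroup: every involution is conjugate into `T`. -/
theorem exists_conj_mem_two_max {L T : Subgroup G} (hT : IsPGroup 2 T) (hTL : T ≤ L)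
    (hmax : ∀ R : Subgroup G, R ≤ L → IsPGroup 2 R → T ≤ R → R ≤ T) {s : G}
    (hs : orderOf s = 2) (hsL : s ∈ L) : ∃ l ∈ L, l * s * l⁻¹ ∈ T := by
  haveI : Fact (Nat.Prime 2) := ⟨Nat.prime_two⟩
  let P : Sylow 2 ↥L :=
    { toSubgroup := T.subgroupOf L
      isPGroup' := hT.comap_of_injective L.subtype L.subtype_injective
      is_maximal' := fun {R} hR hle => by
        refine le_antisymm (fun x hx => ?_) hle
        exact hmax (R.map L.subtype) (Subgroup.map_subtype_le _) (hR.map _)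
          (fun t ht => ⟨⟨t, hTL ht⟩, hle ht, rfl⟩) ⟨x, hx, rfl⟩ }
  obtain ⟨Q, hQ⟩ := (isPGroup_zpowers (p := 2) (k := 1) (x := (⟨s, hsL⟩ : L))
    (Subtype.ext (by rw [pow_one]; exact sq_eq hs))).exists_le_sylow
  obtain ⟨l, hl⟩ := MulAction.exists_smul_eq L Q P
  refine ⟨l, l.2, ?_⟩
  have hmem : l * ⟨s, hsL⟩ * l⁻¹ ∈ ((l • Q : Sylow 2 L) : Subgroup L) := by
    rw [Sylow.coe_subgroup_smul]
    exact ⟨⟨s, hsL⟩, hQ (Subgroup.mem_zpowers _), rfl⟩
  rw [hl] at hmem
  exact Subgroup.mem_subgroupOf.mp (show _ ∈ T.subgroupOf L from hmem)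

/-- A proper subgroup containing two commuting involutions of `M` lies in `M`. -/
theorem Emb.four_le (h : Emb G p S M) {L : Subgroup G} (hL : L ≠ ⊤) {a b : G}
    (ha : orderOf a = 2) (hb : orderOf b = 2) (hab : a ≠ b) (hc : a * b = b * a)
    (haM : a ∈ M) (haL : a ∈ L) (hbL : b ∈ L) : L ≤ M := by
  haveI : Fact (Nat.Prime 2) := ⟨Nat.prime_two⟩
  obtain ⟨T, hle, hT⟩ := Finite.exists_le_maximal
    (p := fun R : Subgroup G => R ≤ L ∧ IsPGroup 2 R)
    (a := Subgroup.zpowers a ⊔ Subgroup.zpowers b)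
    ⟨sup_le (Subgroup.zpowers_le.mpr haL) (Subgroup.zpowers_le.mpr hbL), by
      refine (isPGroup_zpowers (k := 1) (by rw [pow_one, sq_eq ha])).to_sup_of_normal_left'
        (isPGroup_zpowers (k := 1) (by rw [pow_one, sq_eq hb])) (Subgroup.zpowers_le.mpr ?_)
      refine Subgroup.mem_normalizer_iff.mpr fun x => ?_
      have hcomm : ∀ y ∈ Subgroup.zpowers a, b * y * b⁻¹ = y := by
        intro y hy
        obtain ⟨i, rfl⟩ := Subgroup.mem_zpowers_iff.mp hy
        rw [((show Commute a b from hc).zpow_left i).symm.eq, mul_inv_cancel_right]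
      refine ⟨fun hx => by rwa [hcomm x hx], fun hx => ?_⟩
      have h' := hcomm _ hx
      rw [mul_left_inj, mul_right_inj] at h'
      rw [h'] at hx
      exact hx⟩
  have haT : a ∈ T := hle (Subgroup.mem_sup_left (Subgroup.mem_zpowers a))
  have hbT : b ∈ T := hle (Subgroup.mem_sup_right (Subgroup.mem_zpowers b))
  have hTc := h.cex.comm T (h.cex.isPGroup_two hT.1.2)
  have hTM : T ≤ M := fun x hx => StronglyEmbedded.mem_of_commute h.se ha haM (hTc x hx a haT)
  obtain ⟨-, h2, -⟩ := solvable_abelian_sylow (h.cex.sub L hL) hT.1.1 hT.1.2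
    (fun R hR hRp hle' => hT.2 ⟨hR, hRp⟩ hle') hTc
  refine h2.trans (sup_le ?_ (inf_le_right.trans
    (StronglyEmbedded.normalizer_le h.se hTM hT.1.2 ?_)))
  · set A := omegaTwo T hTc with hA
    have hAc : IsMulCommutative A := ⟨⟨fun x y => Subtype.ext (hTc _ x.2.1 _ y.2.1)⟩⟩
    have haA : a ∈ A := ⟨haT, sq_eq ha⟩
    have hbA : b ∈ A := ⟨hbT, sq_eq hb⟩
    have hnc : ¬ IsCyclic A := by
      intro hcyc
      obtain ⟨g, hg⟩ := hcyc.exists_generator
      have hpow : ∀ x : A, x = 1 ∨ x = g := by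
        intro x
        obtain ⟨i, rfl⟩ := Subgroup.mem_zpowers_iff.mp (hg x)
        have hg2 : g ^ (2 : ℤ) = 1 := by
          rw [zpow_ofNat]
          exact Subtype.ext g.2.2
        rcases Int.even_or_odd i with ⟨j, rfl⟩ | ⟨j, rfl⟩
        · exact .inl (by rw [← two_mul, zpow_mul, hg2, one_zpow])
        · exact .inr (by rw [zpow_add, zpow_mul, hg2, one_zpow, one_mul, zpow_one])
      have h1 : (⟨a, haA⟩ : A) = g := (hpow _).resolve_left fun h1 =>
        StronglyEmbedded.ne_one_of_orderOf_two ha (congrArg Subtype.val h1)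
      have h2 : (⟨b, hbA⟩ : A) = g := (hpow _).resolve_left fun h1 =>
        StronglyEmbedded.ne_one_of_orderOf_two hb (congrArg Subtype.val h1)
      exact hab (congrArg Subtype.val (h1.trans h2.symm))
    refine Coprime.le_of_centralizers hAc hnc
      (fun x hx => le_normalizer_oddIn L (hT.1.1 hx.1)) ?_ fun x hx hx1 y hy => ?_
    · obtain ⟨k, hk⟩ := IsPGroup.iff_card.mp (hT.1.2.to_le fun x hx => hx.1 : IsPGroup 2 A)
      rw [hk]
      exact Nat.Coprime.pow_left k ((Nat.prime_two.coprime_iff_not_dvd).mpr (not_dvd_oddIn L))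
    · exact StronglyEmbedded.mem_of_commute h.se (orderOf_eq_prime hx.2 hx1) (hTM hx.1)
        (Subgroup.mem_centralizer_singleton_iff.mp hy.2)
  · intro h0
    rw [h0, Subgroup.mem_bot] at haT
    exact StronglyEmbedded.ne_one_of_orderOf_two ha haT

/-- In a proper subgroup not in `M` containing an involution of `M`, the `p`-subgroups lie in the
odd core and the involutions are conjugate. -/
theorem Emb.outside (h : Emb G p S M) {L : Subgroup G} (hL : L ≠ ⊤) (hLM : ¬ L ≤ M) {t : G}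
    (ht : orderOf t = 2) (htM : t ∈ M) (htL : t ∈ L) :
    (∀ Q : Subgroup G, Q ≤ L → IsPGroup p Q → Q ≤ oddIn L) ∧
      ∀ s : G, orderOf s = 2 → s ∈ L → ∃ l ∈ L, l * s * l⁻¹ = t := by
  haveI : Fact p.Prime := ⟨h.cex.prime⟩
  obtain ⟨T, htT, hTL, hT, hmax, hTc⟩ := h.exists_two_max ht htL
  have hone : ∀ s ∈ T, orderOf s = 2 → s = t := by
    intro s hs hso
    by_contra hne
    exact hLM (h.four_le hL ht hso (Ne.symm hne) (hTc t htT s hs) htM htL (hTL hs))
  obtain ⟨h1, h2, h3⟩ := solvable_abelian_sylow (h.cex.sub L hL) hTL hT hmax hTc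
  refine ⟨fun Q hQL hQ x hx => ?_, fun s hs hsL => ?_⟩
  · obtain ⟨k, hk⟩ := exists_pow_eq_one hQ hx
    have hsplit : x ∈ oddIn L ⊔ T := by
      have hx' := h2 (hQL hx)
      refine (sup_le le_sup_left ?_ : oddIn L ⊔ (L ⊓ Subgroup.normalizer (T : Set G)) ≤
        oddIn L ⊔ T) hx'
      intro n hn
      refine h3 ⟨hn.1, Subgroup.mem_centralizer_iff.mpr fun s hs => ?_⟩
      obtain ⟨a, b, hab, ⟨j, hj⟩, hb⟩ := exists_primary_split n p
      have hA : n ^ a * s = s * n ^ a := by
        refine commute_of_omega h.cex.odd hTc hT hj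
          (fun u hu => conj_mem_of_mem_normalizer (pow_mem hn.2 a) hu) (fun e he he2 => ?_) s hs
        by_cases he1 : e = 1
        · rw [he1, mul_one, one_mul]
        · have het : e = t := hone e he (orderOf_eq_prime he2 he1)
          have h5 : n ^ a * e * (n ^ a)⁻¹ = t :=
            hone _ (conj_mem_of_mem_normalizer (pow_mem hn.2 a) he)
              (by rw [StronglyEmbedded.orderOf_conj]; exact orderOf_eq_prime he2 he1)
          rw [← het] at h5
          exact mul_inv_eq_iff_eq_mul.mp h5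
      have hB : n ^ b * s = s * n ^ b :=
        h.cex.commute_of_normalizes (h.cex.isPGroup_two hT) hb (pow_mem hn.2 b) hs
      rw [hab]
      exact ((show Commute (n ^ a) s from hA).mul_left hB).eq.symm
    have hTn : T ≤ Subgroup.normalizer (oddIn L : Set G) := hTL.trans (le_normalizer_oddIn L)
    obtain ⟨r, hr⟩ := IsPGroup.iff_card.mp hT
    haveI : (oddIn L).subgroupOf (oddIn L ⊔ T) |>.Normal :=
      Subgroup.normal_subgroupOf_of_le_normalizer (sup_le Subgroup.le_normalizer hTn)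
    have hidx : ((oddIn L).subgroupOf (oddIn L ⊔ T)).index ∣ 2 ^ r := by
      have hc1 := Subgroup.card_mul_index ((oddIn L).subgroupOf (oddIn L ⊔ T))
      rw [Nat.card_congr (Subgroup.subgroupOfEquivOfLe le_sup_left).toEquiv] at hc1
      exact (Nat.mul_dvd_mul_iff_left Nat.card_pos).mp
        (by rw [hc1, ← hr]; exact card_sup_dvd hTn)
    have hcop : (p ^ k).Coprime ((oddIn L).subgroupOf (oddIn L ⊔ T)).index :=
      Nat.Coprime.coprime_dvd_right hidx (Nat.Coprime.pow _ _
        ((Nat.coprime_primes h.cex.prime Nat.prime_two).mpr (by have := h.cex.five; omega)))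
    set N := (oddIn L).subgroupOf (oddIn L ⊔ T)
    have hq : (QuotientGroup.mk' N ⟨x, hsplit⟩) = 1 := by
      refine orderOf_eq_one_iff.mp (Nat.eq_one_of_dvd_coprimes hcop ?_ ?_)
      · refine orderOf_dvd_of_pow_eq_one ?_
        rw [← map_pow]
        have : (⟨x, hsplit⟩ : ↥(oddIn L ⊔ T)) ^ p ^ k = 1 := Subtype.ext hk
        rw [this, map_one]
      · exact orderOf_dvd_natCard _
    rw [QuotientGroup.mk'_apply, QuotientGroup.eq_one_iff] at hq
    exact hq
  · obtain ⟨l, hl, hlT⟩ := exists_conj_mem_two_max hT hTL hmax hs hsL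
    exact ⟨l, hl, hone _ hlT (by rw [StronglyEmbedded.orderOf_conj, hs])⟩

end CfsgLib.SmallExp
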