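import Cfsg.Agent.SmallExp.Count
import Cfsg.Agent.CN.Quotient
import Cfsg.Agent.Chars.Apps.Burnside
import Mathlib.GroupTheory.SchurZassenhaus

/-!
# Groups all of whose `p'`-subgroups are abelian of small exponent are solvable
-/

set_option autoImplicit false
set_option linter.style.haveILetI false

namespace CfsgLib.SmallExp

open Cfsg CfsgLib

universe u

/-- The hypothesis of the theorem. -/
def Small (p : ℕ) (G : Type u) [Group G] : Prop :=
  ∀ H : Subgroup G, ¬ p ∣ Nat.card H →
    (∀ a ∈ H, ∀ b ∈ H, a * b = b * a) ∧ ∀ a ∈ H, a ^ (p - 1) = 1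

variable {p : ℕ}

theorem Small.subgroup {G : Type u} [Group G] (h : Small p G) (K : Subgroup G) :
    Small p K := by
  intro H hH
  obtain ⟨h1, h2⟩ := h (H.map K.subtype)
    (by rwa [Subgroup.card_map_of_injective K.subtype_injective])
  exact ⟨fun a ha b hb => Subtype.ext (h1 _ ⟨a, ha, rfl⟩ _ ⟨b, hb, rfl⟩),
    fun a ha => Subtype.ext (h2 _ ⟨a, ha, rfl⟩)⟩

/-- The hypothesis passes to the quotient by a normal subgroup of prime power order. -/
theorem Small.quotient [hp : Fact p.Prime] {G : Type u} [Group G] [Finite G] (h : Small p G)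
    {q : ℕ} (hq : q.Prime) {N : Subgroup G} [N.Normal] (hN : IsPGroup q N) : Small p (G ⧸ N) := by
  haveI := Fact.mk hq
  intro H hH
  set φ := QuotientGroup.mk' N
  set R := H.comap φ with hR
  have hNR : N ≤ R := fun x hx => by
    rw [hR, Subgroup.mem_comap, QuotientGroup.mk'_apply, (QuotientGroup.eq_one_iff x).mpr hx]
    exact H.one_mem
  have hmap : R.map φ = H := Subgroup.map_comap_eq_self_of_surjective (QuotientGroup.mk'_surjective N) H
  obtain ⟨n, hn⟩ := IsPGroup.iff_card.mp hN
  have hcard : Nat.card R = Nat.card N * Nat.card H := by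
    have h1 := Subgroup.card_mul_index (N.subgroupOf R)
    rw [Nat.card_congr (Subgroup.subgroupOfEquivOfLe hNR).toEquiv] at h1
    have h2 : (N.subgroupOf R).index = Nat.card H := by
      change N.relIndex R = _
      have h3 := Subgroup.relIndex_comap ⊥ φ R
      rw [MonoidHom.comap_bot, QuotientGroup.ker_mk', Subgroup.relIndex_bot_left, hmap] at h3
      exact h3
    rw [← h1, h2]
  obtain ⟨L, hLp, hLmap⟩ : ∃ L : Subgroup G, ¬ p ∣ Nat.card L ∧ L.map φ = H := by
    by_cases hqp : q = p
    · have hcop : (Nat.card (N.subgroupOf R)).Coprime (N.subgroupOf R).index := by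
        have h1 := Subgroup.card_mul_index (N.subgroupOf R)
        rw [Nat.card_congr (Subgroup.subgroupOfEquivOfLe hNR).toEquiv] at h1 ⊢
        rw [hcard, Nat.mul_right_inj Nat.card_pos.ne'] at h1
        rw [h1, hn, hqp]
        exact Nat.Coprime.pow_left n ((hp.out.coprime_iff_not_dvd).mpr hH)
      obtain ⟨K, hK⟩ := Subgroup.exists_right_complement'_of_coprime hcop
      refine ⟨K.map R.subtype, ?_, ?_⟩
      · rw [Subgroup.card_map_of_injective R.subtype_injective, ← hK.symm.index_eq_card]
        intro hd
        have h1 := Subgroup.card_mul_index (N.subgroupOf R)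
        rw [Nat.card_congr (Subgroup.subgroupOfEquivOfLe hNR).toEquiv, hcard,
          Nat.mul_right_inj Nat.card_pos.ne'] at h1
        exact hH (h1 ▸ hd)
      · refine le_antisymm (hmap ▸ Subgroup.map_mono (Subgroup.map_subtype_le K)) fun x hx => ?_
        rw [← hmap] at hx
        obtain ⟨r, hr, rfl⟩ := hx
        obtain ⟨⟨⟨a, ha⟩, ⟨b, hb⟩⟩, hab⟩ := hK.existsUnique (⟨r, hr⟩ : R) |>.exists
        refine ⟨(b : G), ⟨b, hb, rfl⟩, ?_⟩
        have hab' : (a : G) * b = r := congrArg Subtype.val hab
        rw [← hab', map_mul, show φ (a : G) = 1 from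
          (QuotientGroup.eq_one_iff _).mpr (Subgroup.mem_subgroupOf.mp ha), one_mul]
    · refine ⟨R, fun hd => ?_, hmap⟩
      rw [hcard] at hd
      rcases hp.out.dvd_mul.mp hd with h1 | h1
      · rw [hn] at h1
        exact hqp ((Nat.prime_dvd_prime_iff_eq hp.out hq).mp (hp.out.dvd_of_dvd_pow h1)).symm
      · exact hH h1
  obtain ⟨h1, h2⟩ := h L hLp
  subst hLmap
  refine ⟨?_, ?_⟩
  · rintro _ ⟨a, ha, rfl⟩ _ ⟨b, hb, rfl⟩
    rw [← map_mul, ← map_mul, h1 a ha b hb]
  · rintro _ ⟨a, ha, rfl⟩
    rw [← map_pow, h2 a ha, map_one]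

/-- **The theorem**, given the odd order theorem. -/
theorem isSolvable_of_small
    (hodd : ∀ (H : Type u) [Group H] [Finite H], Odd (Nat.card H) → Group.IsSolvable H)
    [hp : Fact p.Prime] :
    ∀ (n : ℕ) (G : Type u) [Group G] [Finite G], Nat.card G ≤ n → Small p G →
      Group.IsSolvable G := by
  intro n
  induction n with
  | zero =>
    intro G _ _ hn
    exact absurd hn (by have := Nat.card_pos (α := G); omega)
  | succ n ih =>
    intro G _ _ hn hS
    by_contra hns
    have hsub : ∀ L : Subgroup G, L ≠ ⊤ → Group.IsSolvable L := fun L hL => by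
      refine ih L ?_ (hS.subgroup L)
      have h1 := Subgroup.card_mul_index L
      have h2 : 2 ≤ L.index := Subgroup.one_lt_index_of_ne_top hL
      have h3 := Nat.card_pos (α := L)
      nlinarith
    have hsimple : ∀ N : Subgroup G, N.Normal → N = ⊥ ∨ N = ⊤ := by
      intro N hN
      by_contra! hne
      haveI := hN
      obtain ⟨q, A, hq, hA, -, hA1, hAq⟩ := CN.exists_normal_pGroup_le N (hsub N hne.2) hne.1
      haveI := hA
      haveI := Fact.mk hq
      haveI : Group.IsSolvable (G ⧸ A) := by
        refine ih _ ?_ (hS.quotient hq hAq)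
        have h1 := Subgroup.card_eq_card_quotient_mul_card_subgroup A
        have h2 : 1 < Nat.card A := by
          rw [Finite.one_lt_card_iff_nontrivial, Subgroup.nontrivial_iff_ne_bot]; exact hA1
        have h3 := Nat.card_pos (α := G ⧸ A)
        nlinarith
      haveI := hAq.isNilpotent
      exact hns (solvable_of_ker_le_range A.subtype (QuotientGroup.mk' A)
        (by rw [QuotientGroup.ker_mk', Subgroup.range_subtype]))
    rcases Nat.even_or_odd (Nat.card G) with he | ho
    swap
    · exact hns (hodd G ho)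
    by_cases h5 : 5 ≤ p
    · have hc : Cex G p := ⟨hp.out, h5, fun H hH => (hS H hH).1, hsimple, hns, hsub, he⟩
      haveI : Fact (Nat.Prime 2) := ⟨Nat.prime_two⟩
      obtain ⟨S⟩ : Nonempty (Sylow 2 G) := inferInstance
      obtain ⟨M, hM, hNM⟩ := hc.exists_embedded S
      exact (⟨hc, hM, hNM⟩ : Emb G p S M).false
    · refine hns (CfsgLib.Chars.Apps.isSolvable_of_primeFactors_subset G (p := 2) (q := 3)
        Nat.prime_two Nat.prime_three fun r hr hd => ?_)
      haveI := Fact.mk hr
      obtain ⟨x, hx⟩ := exists_prime_orderOf_dvd_card' r hd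
      by_cases hrp : r = p
      · have := hr.two_le
        by_cases h2 : r = 2
        · exact Or.inl h2
        · right
          have h4 : r < 5 := by omega
          interval_cases r <;> first | rfl | omega | exact absurd hr (by norm_num)
      · have h1 := (hS (Subgroup.zpowers x) (by
          rw [Nat.card_zpowers, hx]
          exact fun hd' => hrp ((Nat.prime_dvd_prime_iff_eq hp.out hr).mp hd').symm)).2 x
          (Subgroup.mem_zpowers x)
        have h2 : r ∣ p - 1 := hx ▸ orderOf_dvd_of_pow_eq_one h1
        have := hr.two_le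
        have := hp.out.two_le
        have h3 := Nat.le_of_dvd (by omega) h2
        have h4 : r ≤ 3 := by omega
        interval_cases r <;> simp

end CfsgLib.SmallExp
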