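import Cfsg.Agent.SmallExp.Action

/-!
# Groups all of whose `p'`-subgroups are abelian: Sylow `p`-subgroups invariant under an involution
-/

set_option autoImplicit false
set_option linter.style.haveILetI false

namespace CfsgLib.SmallExp

open Cfsg CfsgLib
open scoped Pointwise

variable {G : Type*} [Group G] [Finite G] {p : ℕ} {S : Sylow 2 G} {M : Subgroup G}

theorem mem_normalizer_of_conj_mem [Finite G] {Q : Subgroup G} {g : G}
    (h : ∀ x ∈ Q, g * x * g⁻¹ ∈ Q) : g ∈ Subgroup.normalizer (Q : Set G) := by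
  refine Subgroup.mem_normalizer_iff.mpr fun x => ⟨h x, fun hx => ?_⟩
  have hmap : Q.map (MulAut.conj g).toMonoidHom ≤ Q := by rintro _ ⟨z, hz, rfl⟩; exact h z hz
  have heq : Q.map (MulAut.conj g).toMonoidHom = Q := Subgroup.eq_of_le_of_card_ge hmap
    (by rw [Subgroup.card_map_of_injective (MulAut.conj g).injective])
  rw [← heq, Subgroup.mem_map_equiv, MulAut.conj_symm_apply] at hx
  simpa [mul_assoc] using hx

theorem Emb.core_mem_aux (h : Emb G p S M) {t : G} (ht : orderOf t = 2)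
    (htS : t ∈ (S : Subgroup G)) {Q : Subgroup G} (hQ : IsPGroup p Q) (hQM : Q ≤ M)
    (htQ : t ∈ Subgroup.normalizer (Q : Set G)) : Q ≤ oddIn M := by
  haveI : Fact p.Prime := ⟨h.cex.prime⟩
  haveI : Fact (Nat.Prime 2) := ⟨Nat.prime_two⟩
  obtain ⟨h1, h2, h3⟩ := solvable_abelian_sylow h.solvable h.sylow_le S.2
    (fun R _ hR hle => (S.is_maximal' hR hle).le) h.comm
  set K := oddIn M with hK
  set KS := K ⊔ (S : Subgroup G) with hKS
  have hSn : (S : Subgroup G) ≤ Subgroup.normalizer (K : Set G) :=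
    h.sylow_le.trans (le_normalizer_oddIn M)
  have hKSM : KS ≤ M := sup_le (oddIn_le M) h.sylow_le
  -- `p`-elements of `K S` lie in `K`
  haveI : (K.subgroupOf KS).Normal :=
    Subgroup.normal_subgroupOf_of_le_normalizer (sup_le Subgroup.le_normalizer hSn)
  have hpmem : ∀ x ∈ KS, ∀ k : ℕ, x ^ p ^ k = 1 → x ∈ K := by
    intro x hx k hk
    obtain ⟨r, hr⟩ := IsPGroup.iff_card.mp S.2
    have hidx : (K.subgroupOf KS).index ∣ 2 ^ r := by
      have hc1 := Subgroup.card_mul_index (K.subgroupOf KS)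
      rw [Nat.card_congr (Subgroup.subgroupOfEquivOfLe le_sup_left).toEquiv] at hc1
      exact (Nat.mul_dvd_mul_iff_left Nat.card_pos).mp (by rw [hc1, ← hr]; exact card_sup_dvd hSn)
    have hcop : (p ^ k).Coprime (K.subgroupOf KS).index :=
      Nat.Coprime.coprime_dvd_right hidx (Nat.Coprime.pow _ _
        ((Nat.coprime_primes h.cex.prime Nat.prime_two).mpr (by have := h.cex.five; omega)))
    have hq : (QuotientGroup.mk' (K.subgroupOf KS) ⟨x, hx⟩) = 1 := by
      refine orderOf_eq_one_iff.mp (Nat.eq_one_of_dvd_coprimes hcop ?_ (orderOf_dvd_natCard _))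
      refine orderOf_dvd_of_pow_eq_one ?_
      rw [← map_pow, show (⟨x, hx⟩ : KS) ^ p ^ k = 1 from Subtype.ext hk, map_one]
    rw [QuotientGroup.mk'_apply, QuotientGroup.eq_one_iff] at hq
    exact hq
  intro a ha
  obtain ⟨k, hk⟩ := exists_pow_eq_one hQ ha
  set m := t * a * t⁻¹ * a⁻¹ with hm
  have hmQ : m ∈ Q := Q.mul_mem (conj_mem_of_mem_normalizer htQ ha) (Q.inv_mem ha)
  have hmKS : m ∈ KS := by
    rw [hm, show t * a * t⁻¹ * a⁻¹ = t * (a * t⁻¹ * a⁻¹) by group]
    exact mul_mem (Subgroup.mem_sup_right htS)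
      (conj_mem_of_mem_normalizer (h1 (hQM ha)) (Subgroup.mem_sup_right (inv_mem htS)))
  obtain ⟨j, hj⟩ := exists_pow_eq_one hQ hmQ
  have hmK : m ∈ K := hpmem m hmKS j hj
  have hset := Subgroup.coe_mul_of_right_le_normalizer_left K
    (M ⊓ Subgroup.normalizer ((S : Subgroup G) : Set G)) (inf_le_left.trans (le_normalizer_oddIn M))
  have ha' : a ∈ (K : Set G) *
      ((M ⊓ Subgroup.normalizer ((S : Subgroup G) : Set G) : Subgroup G) : Set G) := by
    rw [← hset]; exact h2 (hQM ha)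
  obtain ⟨c, hc, n, hn, rfl⟩ := ha'
  have hKc : ∀ g ∈ M, ∀ z ∈ K, g * z * g⁻¹ ∈ K := fun g hg z hz =>
    conj_mem_of_mem_normalizer (le_normalizer_oddIn M hg) hz
  have htn : t * n * t⁻¹ * n⁻¹ ∈ K := by
    have e : t * n * t⁻¹ * n⁻¹ =
        (t * c * t⁻¹)⁻¹ * m * (c * n * 1 * n⁻¹) := by rw [hm]; group
    rw [e]
    refine mul_mem (mul_mem (inv_mem (hKc t (h.sylow_le htS) c hc)) hmK) ?_
    simpa using hc
  have htn1 : t * n * t⁻¹ * n⁻¹ = 1 := by
    have hS' : t * n * t⁻¹ * n⁻¹ ∈ (S : Subgroup G) := by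
      rw [show t * n * t⁻¹ * n⁻¹ = t * (n * t⁻¹ * n⁻¹) by group]
      exact mul_mem htS (conj_mem_of_mem_normalizer hn.2 (inv_mem htS))
    obtain ⟨i, hi⟩ := exists_pow_eq_one S.2 hS'
    refine orderOf_eq_one_iff.mp (Nat.eq_one_of_dvd_coprimes (Nat.Coprime.pow_left i
      ((Nat.prime_two.coprime_iff_not_dvd).mpr (not_dvd_oddIn M)))
      (orderOf_dvd_of_pow_eq_one hi) ?_)
    have hd := orderOf_dvd_natCard (⟨_, htn⟩ : K)
    rwa [← Subgroup.orderOf_coe] at hd
  have hnt : n * t = t * n := by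
    rw [mul_inv_eq_one, mul_inv_eq_iff_eq_mul] at htn1
    exact htn1.symm
  have hnS := h.stab_le hn.2 ht htS hnt
  have hnKS : n ∈ KS := h3 ⟨hn.1, Subgroup.mem_centralizer_iff.mpr fun s hs => (hnS s hs).symm⟩
  exact hpmem _ (mul_mem (Subgroup.mem_sup_left hc) hnKS) k hk

/-- A `p`-subgroup of `M` normalised by an involution of `M` lies in the odd core. -/
theorem Emb.core_mem (h : Emb G p S M) {t : G} (ht : orderOf t = 2) (htM : t ∈ M) {Q : Subgroup G}
    (hQ : IsPGroup p Q) (hQM : Q ≤ M) (htQ : t ∈ Subgroup.normalizer (Q : Set G)) :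
    Q ≤ oddIn M := by
  obtain ⟨m, hm, hmt⟩ := exists_conj_mem_two_max S.2 h.sylow_le
    (fun R _ hR hle => (S.is_maximal' hR hle).le) ht htM
  intro a ha
  have hle := h.core_mem_aux (t := m * t * m⁻¹) (by rw [StronglyEmbedded.orderOf_conj, ht]) hmt
    (Q := Q.map (MulAut.conj m).toMonoidHom) (hQ.map _)
    (by rintro _ ⟨x, hx, rfl⟩; exact mul_mem (mul_mem hm (hQM hx)) (inv_mem hm))
    (mem_normalizer_of_conj_mem (by
      rintro _ ⟨x, hx, rfl⟩
      exact ⟨t * x * t⁻¹, conj_mem_of_mem_normalizer htQ hx, by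
        simp only [MulEquiv.coe_toMonoidHom, MulAut.conj_apply]; group⟩))
    ⟨a, ha, rfl⟩
  have h' := conj_mem_of_mem_normalizer (le_normalizer_oddIn M (inv_mem hm)) hle
  simp only [MulEquiv.coe_toMonoidHom, MulAut.conj_apply] at h'
  rw [show m⁻¹ * (m * a * m⁻¹) * m⁻¹⁻¹ = a by group] at h'
  exact h'

theorem coprime_zpowers_two {t : G} (ht : orderOf t = 2) {L : Subgroup G} :
    (Nat.card (Subgroup.zpowers t)).Coprime (Nat.card (oddIn L)) := by
  rw [Nat.card_zpowers, ht]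
  exact (Nat.prime_two.coprime_iff_not_dvd).mpr (not_dvd_oddIn L)

theorem zpowers_le_normalizer {L : Subgroup G} {t : G} (h : t ∈ L) :
    Subgroup.zpowers t ≤ Subgroup.normalizer (oddIn L : Set G) :=
  Subgroup.zpowers_le.mpr (le_normalizer_oddIn L h)

/-- A maximal `t`-invariant `p`-subgroup outside `M` is a Sylow subgroup. -/
theorem Emb.isSylow (h : Emb G p S M) {t : G} (ht : orderOf t = 2) (htM : t ∈ M) {T : Subgroup G}
    (hT : IsPGroup p T) (htT : t ∈ Subgroup.normalizer (T : Set G)) (hTM : ¬ T ≤ M)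
    (hmax : ∀ R : Subgroup G, IsPGroup p R → t ∈ Subgroup.normalizer (R : Set G) → T ≤ R → R = T) :
    ∃ P : Sylow p G, (P : Subgroup G) = T := by
  haveI : Fact p.Prime := ⟨h.cex.prime⟩
  set L := Subgroup.normalizer (T : Set G) with hL
  have hLtop : L ≠ ⊤ := h.cex.normalizer_pGroup_ne_top hT fun h0 => hTM (h0 ▸ bot_le)
  have hTL : T ≤ L := Subgroup.le_normalizer
  obtain ⟨hout, -⟩ := h.outside hLtop (fun hle => hTM (hTL.trans hle)) ht htM htT
  obtain ⟨R, hR, hTR⟩ := Coprime.le_invariant_sylow (p := p) (zpowers_le_normalizer htT)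
    (coprime_zpowers_two ht) (Or.inl (Coprime.isSolvable_zpowers t)) T (hout T hTL hT) hT
    (Subgroup.zpowers_le.mpr htT)
  have hReq : (R : Subgroup (oddIn L)).map (oddIn L).subtype = T :=
    hmax _ (R.isPGroup'.map _) (hR (Subgroup.mem_zpowers t)) hTR
  obtain ⟨P, hTP⟩ := hT.exists_le_sylow
  refine ⟨P, (le_antisymm hTP ?_).symm⟩
  by_contra hne
  have hlt : T < (P : Subgroup G) := lt_of_le_not_ge hTP hne
  set V := Subgroup.normalizer (T : Set G) ⊓ (P : Subgroup G)
  have hV : T < V := Signalizer.lt_normalizer_inf P.2 hlt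
  have hVO : V ≤ oddIn L := hout V inf_le_left (P.2.to_le inf_le_right)
  have hmR := R.3 ((P.2.to_le inf_le_right : IsPGroup p V).comap_of_injective (oddIn L).subtype
    (oddIn L).subtype_injective) (fun x hx => hV.le (hReq ▸ Subgroup.mem_map_of_mem _ hx))
  refine hV.not_ge fun v hv => hReq ▸ ⟨⟨v, hVO hv⟩, ?_, rfl⟩
  rw [SetLike.mem_coe, ← hmR]
  exact hv

/-- A `t`-invariant `p`-subgroup outside `M` meets `M` trivially. -/
theorem Emb.inf_eq_bot (h : Emb G p S M) {t : G} (ht : orderOf t = 2) (htM : t ∈ M)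
    {Y : Subgroup G} (hY : IsPGroup p Y) (htY : t ∈ Subgroup.normalizer (Y : Set G))
    (hYM : ¬ Y ≤ M) : Y ⊓ M = ⊥ := by
  classical
  haveI : Fact p.Prime := ⟨h.cex.prime⟩
  haveI : Fact (Nat.Prime 2) := ⟨Nat.prime_two⟩
  by_contra hne
  let 𝒴 : Set (Subgroup G) := {Y | IsPGroup p Y ∧ t ∈ Subgroup.normalizer (Y : Set G) ∧ ¬ Y ≤ M ∧
    Y ⊓ M ≠ ⊥}
  obtain ⟨Y, ⟨hY, htY, hYM, hne⟩, hmax⟩ := Set.Finite.exists_maximalFor
    (fun Y : Subgroup G => Nat.card ↥(Y ⊓ M)) 𝒴 (Set.toFinite _) ⟨Y, hY, htY, hYM, hne⟩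
  set D := Y ⊓ M with hD
  set L := Subgroup.normalizer (D : Set G) with hL
  have hDp : IsPGroup p D := hY.to_le inf_le_left
  have hLtop : L ≠ ⊤ := h.cex.normalizer_pGroup_ne_top hDp hne
  have htL : t ∈ L :=
    Coprime.le_normalizer_inf' (Subgroup.zpowers_le.mpr htY)
      (Subgroup.zpowers_le.mpr (Subgroup.le_normalizer htM)) (Subgroup.mem_zpowers t)
  have hDY : D < Y := lt_of_le_not_ge inf_le_left fun hle => hYM (hle.trans inf_le_right)
  set Y₁ := L ⊓ Y with hY₁
  have hlt : D < Y₁ := Signalizer.lt_normalizer_inf hY hDY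
  have hY₁M : ¬ Y₁ ≤ M := fun hle => hlt.not_ge (le_inf inf_le_right hle)
  obtain ⟨hout, -⟩ := h.outside hLtop (fun hle => hY₁M (inf_le_left.trans hle)) ht htM htL
  have hDK : D ≤ oddIn M := h.core_mem ht htM hDp inf_le_right htL
  obtain ⟨X, hX, hDX⟩ := Coprime.le_invariant_sylow (p := p) (zpowers_le_normalizer htM)
    (coprime_zpowers_two ht) (Or.inl (Coprime.isSolvable_zpowers t)) D hDK hDp
    (Subgroup.zpowers_le.mpr htL)
  set Xs := (X : Subgroup (oddIn M)).map (oddIn M).subtype with hXs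
  have hXp : IsPGroup p Xs := X.isPGroup'.map _
  have hXM : Xs ≤ M := (Subgroup.map_subtype_le _).trans (oddIn_le M)
  rcases eq_or_lt_of_le hDX with heq | hlt'
  · -- `D` is a Sylow subgroup of the core, so two involutions of `M` normalise it
    set E := omegaTwo (S : Subgroup G) h.comm with hE
    have hEn : E ≤ Subgroup.normalizer (oddIn M : Set G) := fun e he =>
      le_normalizer_oddIn M (h.sylow_le he.1)
    have hcop : (Nat.card E).Coprime (Nat.card (oddIn M)) := by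
      obtain ⟨r, hr⟩ := IsPGroup.iff_card.mp (S.2.to_le fun x hx => hx.1 : IsPGroup 2 E)
      rw [hr]
      exact Nat.Coprime.pow_left r ((Nat.prime_two.coprime_iff_not_dvd).mpr (not_dvd_oddIn M))
    obtain ⟨P₀, hP₀⟩ := Coprime.exists_invariant_sylow (p := p) hEn hcop
      (Or.inl (Coprime.isSolvable_of_isMulCommutative
        ⟨⟨fun a b => Subtype.ext (h.comm _ a.2.1 _ b.2.1)⟩⟩))
    obtain ⟨k, hk, hke⟩ := Coprime.sylow_map_conj P₀ X
    have h8 := h.cex.eight_le S h.comm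
    change 8 ≤ Nat.card E at h8
    obtain ⟨e₁, he₁⟩ : ∃ e : E, e ≠ 1 := by
      haveI : Nontrivial E := Finite.one_lt_card_iff_nontrivial.mp (by omega)
      exact exists_ne 1
    obtain ⟨e₂, he₂, he₂'⟩ : ∃ e : E, e ≠ 1 ∧ e ≠ e₁ := by
      by_contra! hall
      have hsub : (Set.univ : Set E) ⊆ {1, e₁} := fun e _ => by
        by_cases he : e = 1
        · exact Or.inl he
        · exact Or.inr (hall e he)
      have hcard := Set.ncard_le_ncard hsub (Set.toFinite _)
      rw [Set.ncard_univ] at hcard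
      have := Set.ncard_insert_le (1 : E) {e₁}
      rw [Set.ncard_singleton] at this
      omega
    have hmemL : ∀ e : E, k * e.1 * k⁻¹ ∈ L := by
      intro e
      refine mem_normalizer_of_conj_mem fun x hx => ?_
      rw [heq, hXs, ← hke] at hx ⊢
      obtain ⟨y, hy, rfl⟩ := hx
      exact ⟨e.1 * y * e.1⁻¹, conj_mem_of_mem_normalizer (hP₀ e.2) hy, by
        simp only [MulEquiv.coe_toMonoidHom, MulAut.conj_apply]; group⟩
    have hkM : k ∈ M := oddIn_le M hk
    have hord : ∀ e : E, e ≠ 1 → orderOf (k * e.1 * k⁻¹) = 2 := fun e he => by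
      rw [StronglyEmbedded.orderOf_conj]
      exact orderOf_eq_prime e.2.2 fun h1 => he (Subtype.ext h1)
    refine hY₁M (inf_le_left.trans (h.four_le hLtop (hord e₁ he₁) (hord e₂ he₂) ?_ ?_
      (mul_mem (mul_mem hkM (h.sylow_le e₁.2.1)) (inv_mem hkM)) (hmemL e₁) (hmemL e₂)))
    · intro h1
      exact he₂' (Subtype.ext (mul_left_cancel (mul_right_cancel h1)).symm)
    · exact ((show Commute e₁.1 e₂.1 from h.comm _ e₁.2.1 _ e₂.2.1).map
        (MulAut.conj k).toMonoidHom)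
  · set X₁ := L ⊓ Xs with hX₁
    have hlt₁ : D < X₁ := Signalizer.lt_normalizer_inf hXp hlt'
    have htn : ∀ {Z : Subgroup G}, Subgroup.zpowers t ≤ Subgroup.normalizer (Z : Set G) →
        Subgroup.zpowers t ≤ Subgroup.normalizer ((L ⊓ Z : Subgroup G) : Set G) :=
      fun hZ => Coprime.le_normalizer_inf'
        (Subgroup.zpowers_le.mpr (Subgroup.le_normalizer htL)) hZ
    obtain ⟨R₁, hR₁, hX₁R⟩ := Coprime.le_invariant_sylow (p := p) (zpowers_le_normalizer htL)
      (coprime_zpowers_two ht) (Or.inl (Coprime.isSolvable_zpowers t)) X₁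
      (hout X₁ inf_le_left (hXp.to_le inf_le_right)) (hXp.to_le inf_le_right) (htn hX)
    obtain ⟨R₂, hR₂, hY₁R⟩ := Coprime.le_invariant_sylow (p := p) (zpowers_le_normalizer htL)
      (coprime_zpowers_two ht) (Or.inl (Coprime.isSolvable_zpowers t)) Y₁
      (hout Y₁ inf_le_left (hY.to_le inf_le_right)) (hY.to_le inf_le_right)
      (htn (Subgroup.zpowers_le.mpr htY))
    obtain ⟨c, hc, hce⟩ := Coprime.invariant_sylow_conj (zpowers_le_normalizer htL)
      (coprime_zpowers_two ht) (Or.inl (Coprime.isSolvable_zpowers t)) R₁ R₂ hR₁ hR₂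
    have hcM : c ∈ M := StronglyEmbedded.mem_of_commute h.se ht htM
      (Subgroup.mem_centralizer_iff.mp hc.2 t (Subgroup.mem_zpowers t)).symm
    set R := (R₁ : Subgroup (oddIn L)).map (oddIn L).subtype with hR
    have hRM : ¬ R ≤ M := fun hle => hY₁M fun y hy => by
      have hy' := hY₁R hy
      rw [← hce] at hy'
      obtain ⟨z, hz, rfl⟩ := hy'
      exact mul_mem (mul_mem hcM (hle hz)) (inv_mem hcM)
    have hsub : X₁ ≤ R ⊓ M := le_inf hX₁R (inf_le_right.trans hXM)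
    have hmem : R ∈ 𝒴 := ⟨R₁.isPGroup'.map _, hR₁ (Subgroup.mem_zpowers t), hRM,
      fun h0 => hne (le_bot_iff.mp (h0 ▸ hlt₁.le.trans hsub))⟩
    have hcard : Nat.card D < Nat.card ↥(R ⊓ M) := by
      refine lt_of_lt_of_le ?_ (Subgroup.card_le_of_le hsub)
      by_contra! hge
      exact hlt₁.ne (Subgroup.eq_of_le_of_card_ge hlt₁.le hge)
    exact absurd (hmax hmem hcard.le) (not_le_of_gt hcard)

end CfsgLib.SmallExp
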